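import Cfsg.Agent.H777.Th3.SylI
import Mathlib.GroupTheory.Nilpotent

/-!
# The centralizer of the second centre of `Sg` (helper775)
-/

set_option autoImplicit false
set_option linter.unusedSimpArgs false

namespace Cfsg.Agent.H775.Th

open Cfsg.Agent.H777.Th3 Dat
open scoped commutatorElement

set_option synthInstance.maxSize 4000 in
set_option synthInstance.maxHeartbeats 200000 in
theorem dec_c1 : ∀ a b c d f : ZMod 3,
    (((Aq a b c d f (0, 1, 0, 0, 0) - (0, 1, 0, 0, 0)).2 = (0, 0, 0, 0)) ∧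
     ((Aq a b c d f (0, 0, 1, 0, 0) - (0, 0, 1, 0, 0)).2 = (0, 0, 0, 0)) ∧
     ((Aq a b c d f (0, 0, 0, 1, 0) - (0, 0, 0, 1, 0)).2 = (0, 0, 0, 0)) ∧
     ((Aq a b c d f (0, 0, 0, 0, 1) - (0, 0, 0, 0, 1)).2 = (0, 0, 0, 0)) ∧
     Aq a b c d f (T 1 0 0 0 (2, 0, 2, 1, 0)) = T 1 0 0 0 (2, 0, 2, 1, 0)) →
      a = 0 ∧ b = 0 ∧ c = 0 ∧ d = 0 ∧ f = 0 := by
  decide +kernel

theorem dec_c2 : ∀ e : V5, ((X e - e).2 = (0, 0, 0, 0) ∧ (T 1 0 0 0 e - e).2 = (0, 0, 0, 0)) → e.2.2 = (0, 0, 0) := by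
  decide +kernel

variable {G : Type*} [Group G] {D : Dat G}

theorem pow_u1 (k : ZMod 3) : D.u1 ^ k.val = D.uu (k, 0, 0, 0, 0) := by
  unfold uu
  simp

/-- elements central modulo `⟨u1⟩` -/
theorem mem_Z2 (h1 : D.u1 ≠ 1) {x : G} (hx : x ∈ D.Sg) (hc : ∀ s ∈ D.Sg, ∃ k : ZMod 3, x⁻¹ * s * x = s * D.u1 ^ k.val) :
    ∃ e : V5, e.2.2 = 0 ∧ x = D.uu e := by
  obtain ⟨a, b, c, d, f, ha⟩ := act_of_mem_Sg hx
  have k1 : ∀ e : V5, (Aq a b c d f e - e).2 = (0, 0, 0, 0) := by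
    intro e
    obtain ⟨k, hk⟩ := hc _ (D.U_le_Sg (D.uu_mem e))
    rw [ha, pow_u1, ← uu_add] at hk
    have := uu_injective h1 hk
    rw [this, add_sub_cancel_left]
  have hu1 : ∀ s ∈ D.Sg, ∀ k : ZMod 3, s * D.u1 ^ k.val = D.u1 ^ k.val * s := by
    intro s hs k
    have h2 := conj_u1 hs
    have h3 : D.u1 * s = s * D.u1 := by
      calc D.u1 * s = s * (s⁻¹ * D.u1 * s) := by group
        _ = s * D.u1 := by rw [h2]
    exact ((show Commute D.u1 s from h3).pow_left _).symm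
  -- `x` commutes with the commutator of `v1` and `r1`
  have k2 : Aq a b c d f (T 1 0 0 0 (2, 0, 2, 1, 0)) = T 1 0 0 0 (2, 0, 2, 1, 0) := by
    obtain ⟨k, hk⟩ := hc _ v1_Sg
    obtain ⟨l, hl⟩ := hc _ r1_Sg
    have g1 : D.r1⁻¹ * D.v1 * D.r1 = D.uu (2, 0, 2, 1, 0) * D.v1 := by
      have := conj_eq_of (x := D.v1) (s := D.r1) (y := D.u1 ^ 2 * D.u3 ^ 2 * D.u4 * D.v1) (by
        rw [D.j_v1_r1]; simp only [mul_assoc])
      rw [this]
      unfold uu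
      simp [ZMod.val_one, val_two]
    have g2 : D.uu (T 1 0 0 0 (2, 0, 2, 1, 0)) = D.v1⁻¹ * (D.r1⁻¹ * D.v1 * D.r1) := by
      rw [g1, ← D.act_v1]
      group
    have g3 : x⁻¹ * (D.v1⁻¹ * (D.r1⁻¹ * D.v1 * D.r1)) * x = D.v1⁻¹ * (D.r1⁻¹ * D.v1 * D.r1) := by
      calc x⁻¹ * (D.v1⁻¹ * (D.r1⁻¹ * D.v1 * D.r1)) * x
          = (x⁻¹ * D.v1 * x)⁻¹ * ((x⁻¹ * D.r1 * x)⁻¹ * (x⁻¹ * D.v1 * x) * (x⁻¹ * D.r1 * x)) := by group
        _ = (D.v1 * D.u1 ^ k.val)⁻¹ * ((D.r1 * D.u1 ^ l.val)⁻¹ * (D.v1 * D.u1 ^ k.val) * (D.r1 * D.u1 ^ l.val)) := by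
            rw [hk, hl]
        _ = (D.v1 * D.u1 ^ k.val)⁻¹ * ((D.u1 ^ l.val)⁻¹ * D.r1⁻¹ * (D.v1 * (D.u1 ^ k.val * D.r1)) * D.u1 ^ l.val) := by
            group
        _ = (D.v1 * D.u1 ^ k.val)⁻¹ * ((D.u1 ^ l.val)⁻¹ * (D.r1⁻¹ * (D.v1 * D.r1)) * (D.u1 ^ k.val * D.u1 ^ l.val)) := by
            rw [← hu1 _ r1_Sg k]; group
        _ = (D.v1 * D.u1 ^ k.val)⁻¹ * ((D.u1 ^ l.val)⁻¹ * ((D.r1⁻¹ * (D.v1 * D.r1)) * D.u1 ^ l.val) * D.u1 ^ k.val) := by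
            rw [← pow_add, add_comm, pow_add]; group
        _ = (D.v1 * D.u1 ^ k.val)⁻¹ * ((D.r1⁻¹ * (D.v1 * D.r1)) * D.u1 ^ k.val) := by
            rw [hu1 _ (D.Sg.mul_mem (D.Sg.inv_mem r1_Sg) (D.Sg.mul_mem v1_Sg r1_Sg)) l]; group
        _ = _ := by
            rw [hu1 _ (D.Sg.mul_mem (D.Sg.inv_mem r1_Sg) (D.Sg.mul_mem v1_Sg r1_Sg)) k, hu1 _ v1_Sg k]; group
    rw [← g2, ha] at g3
    exact uu_injective h1 g3
  obtain ⟨rfl, rfl, rfl, rfl, rfl⟩ := dec_c1 a b c d f ⟨k1 _, k1 _, k1 _, k1 _, k2⟩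
  have hU : x ∈ D.U := mem_U_of_act h1 hx (ha.congr (fun e => Aq_zero e))
  obtain ⟨e, rfl⟩ := (D.mem_U).1 hU
  refine ⟨e, ?_, rfl⟩
  have key : ∀ {s : G} {g : V5 → V5}, s ∈ D.Sg → D.Act s g → (g e - e).2 = (0, 0, 0, 0) := by
    intro s g hs hg
    obtain ⟨k, hk⟩ := hc s hs
    have h2 : s⁻¹ * D.uu e * s = D.uu (e + (-k, 0, 0, 0, 0)) := by
      rw [uu_add]
      have h3 : D.uu (-k, 0, 0, 0, 0) = (D.u1 ^ k.val)⁻¹ := by
        rw [pow_u1, ← uu_neg]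
        congr 1
        simp
      rw [h3]
      calc s⁻¹ * D.uu e * s = s⁻¹ * D.uu e * (D.uu e * s * (D.u1 ^ k.val) * (D.uu e)⁻¹ * (D.u1 ^ k.val)⁻¹ *
            ((D.u1 ^ k.val) * (D.uu e) * (D.u1 ^ k.val)⁻¹ * s⁻¹ * (D.uu e)⁻¹ * s)) := by group
        _ = s⁻¹ * D.uu e * (D.uu e * (s * (D.u1 ^ k.val)) * (D.uu e)⁻¹ * (D.u1 ^ k.val)⁻¹ *
            ((D.u1 ^ k.val) * (D.uu e) * (D.u1 ^ k.val)⁻¹ * s⁻¹ * (D.uu e)⁻¹ * s)) := by group
        _ = s⁻¹ * D.uu e * s * 1 := by group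
        _ = _ := ?_
      have h4 : s * D.u1 ^ k.val * (D.uu e)⁻¹ = (D.uu e)⁻¹ * s := by rw [← hk]; group
      have h5 : D.uu e * s * D.u1 ^ k.val = s * D.uu e := by
        calc D.uu e * s * D.u1 ^ k.val = D.uu e * (s * D.u1 ^ k.val * (D.uu e)⁻¹) * D.uu e := by group
          _ = s * D.uu e := by rw [h4]; group
      rw [mul_one]
      calc s⁻¹ * D.uu e * s = s⁻¹ * (D.uu e * s * D.u1 ^ k.val) * (D.u1 ^ k.val)⁻¹ := by group
        _ = D.uu e * (D.u1 ^ k.val)⁻¹ := by rw [h5]; group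
    rw [hg] at h2
    rw [uu_injective h1 h2, add_sub_cancel_left]
  exact dec_c2 e ⟨key D.x0_Sg D.act_x0, key v1_Sg D.act_v1⟩

section transport

variable {P : Type*} [Group P] {f : P →* G}

theorem mem_center_map (h1 : D.u1 ≠ 1) (hf : Function.Injective f) (hfr : f.range = D.Sg) {z : P} :
    z ∈ Subgroup.center P ↔ ∃ k : ZMod 3, f z = D.u1 ^ k.val := by
  have hm : ∀ x, f x ∈ D.Sg := fun x => by rw [← hfr]; exact ⟨x, rfl⟩
  constructor
  · intro hz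
    apply center_eq h1 (hm z)
    intro s hs
    rw [← hfr] at hs
    obtain ⟨y, rfl⟩ := hs
    rw [← map_mul, ← map_mul, Subgroup.mem_center_iff.1 hz y]
  · rintro ⟨k, hk⟩
    rw [Subgroup.mem_center_iff]
    intro g
    apply hf
    rw [map_mul, map_mul, hk]
    have h2 := conj_u1 (hm g)
    have h3 : D.u1 * f g = f g * D.u1 := by
      calc D.u1 * f g = f g * ((f g)⁻¹ * D.u1 * f g) := by group
        _ = f g * D.u1 := by rw [h2]
    exact ((show Commute D.u1 (f g) from h3).pow_left _).symm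

theorem mem_ucs (x : P) : x ∈ Subgroup.upperCentralSeries P 2 ↔ ∀ y : P, x * y * x⁻¹ * y⁻¹ ∈ Subgroup.center P := by
  have h : x ∈ Subgroup.upperCentralSeries P (1 + 1) ↔ ∀ y : P, ⁅x, y⁆ ∈ Subgroup.upperCentralSeries P 1 :=
    Subgroup.mem_upperCentralSeries_succ_iff
  rw [Subgroup.upperCentralSeries_one] at h
  exact h

/-- **the centralizer of the second centre** -/
theorem map_centralizer (h1 : D.u1 ≠ 1) (hf : Function.Injective f) (hfr : f.range = D.Sg) :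
    (Subgroup.centralizer ((Subgroup.upperCentralSeries P 2 : Subgroup P) : Set P)).map f = D.Tg := by
  have hm : ∀ x, f x ∈ D.Sg := fun x => by rw [← hfr]; exact ⟨x, rfl⟩
  ext y
  constructor
  · rintro ⟨y, hy, rfl⟩
    rw [mem_Tg_iff h1 (hm y)]
    -- `u2` is in the second centre
    obtain ⟨x0, hx0⟩ : ∃ x, f x = D.u2 := by
      have h2 : D.u2 ∈ f.range := by rw [hfr]; exact D.U_le_Sg D.u2_mem
      exact h2
    have h2 : x0 ∈ Subgroup.upperCentralSeries P 2 := by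
      rw [mem_ucs]
      intro s
      rw [mem_center_map h1 hf hfr]
      obtain ⟨k, hk⟩ := conj_u2 (D.Sg.inv_mem (hm s))
      rw [inv_inv] at hk
      refine ⟨-k, ?_⟩
      rw [map_mul, map_mul, map_mul, map_inv, map_inv, hx0]
      have h3 : D.u2 * f s * D.u2⁻¹ * (f s)⁻¹ = D.u2 * (f s * D.u2 * (f s)⁻¹)⁻¹ := by group
      rw [h3, hk, pow_u1, pow_u1, ← D.uu_2, ← uu_add, ← uu_neg, ← uu_add]
      congr 1
      simp
    have h3 := Subgroup.mem_centralizer_iff.1 hy x0 h2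
    have h4 : D.u2 * f y = f y * D.u2 := by rw [← hx0, ← map_mul, h3, map_mul]
    rw [mul_assoc, h4, inv_mul_cancel_left]
  · intro hy
    obtain ⟨y, rfl⟩ : ∃ x, f x = y := by
      have h2 : y ∈ f.range := by rw [hfr]; exact D.Tg_le_Sg hy
      exact h2
    refine ⟨y, ?_, rfl⟩
    refine Subgroup.mem_centralizer_iff.2 fun x hx => ?_
    have hx' : x ∈ Subgroup.upperCentralSeries P 2 := hx
    rw [mem_ucs] at hx'
    obtain ⟨e, he, hxe⟩ := mem_Z2 h1 (hm x) (by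
      intro s hs
      rw [← hfr] at hs
      obtain ⟨s, rfl⟩ := hs
      obtain ⟨k, hk⟩ := (mem_center_map h1 hf hfr).1 (hx' (x⁻¹ * s * x))
      have hk' : f s * (f x)⁻¹ * (f s)⁻¹ * f x = D.u1 ^ k.val := by
        rw [← hk]
        have : x * (x⁻¹ * s * x) * x⁻¹ * (x⁻¹ * s * x)⁻¹ = s * x⁻¹ * s⁻¹ * x := by group
        rw [this]
        simp only [map_mul, map_inv]
      refine ⟨-k, ?_⟩
      have h5 : D.u1 * f s = f s * D.u1 := by
        have h2 := conj_u1 (hm s)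
        calc D.u1 * f s = f s * ((f s)⁻¹ * D.u1 * f s) := by group
          _ = f s * D.u1 := by rw [h2]
      have h6 : D.u1 ^ k.val * f s = f s * D.u1 ^ k.val := (show Commute D.u1 (f s) from h5).pow_left _
      have h7 : (f x)⁻¹ * (f s)⁻¹ * f x * f s = D.u1 ^ k.val := by
        calc (f x)⁻¹ * (f s)⁻¹ * f x * f s = (f s)⁻¹ * ((f s * (f x)⁻¹ * (f s)⁻¹ * f x) * f s) := by group
          _ = D.u1 ^ k.val := by rw [hk', h6, inv_mul_cancel_left]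
      have h8 : D.u1 ^ (-k).val = (D.u1 ^ k.val)⁻¹ := by
        rw [pow_u1, pow_u1, ← uu_neg]
        congr 1
        simp
      rw [h8, ← h7]
      group)
    apply hf
    rw [map_mul, map_mul, hxe]
    obtain ⟨a, b, c, d, ha⟩ := act_of_mem_Tg hy
    have h3 := ha e
    have h4 : T a b c d e = e := by
      obtain ⟨e1, e2, e3⟩ := e
      have : e3 = 0 := he
      subst this
      simp [T]
    rw [h4] at h3
    calc D.uu e * f y = f y * ((f y)⁻¹ * D.uu e * f y) := by group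
      _ = f y * D.uu e := by rw [h3]

end transport

end Cfsg.Agent.H775.Th
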