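import Cfsg.Agent.H777.Th3.ThNV
import Cfsg.Agent.H775.Th.TElDat

/-!
# An element of order 8 of the Thompson group normalizing `Tg` and `Vs` (helper775)

The matrix of the element is stored (`m_tt`), the values of the other words are those of `H777.Th3.known`; every relation
is its own theorem (memory of the kernel).
-/

set_option autoImplicit false
set_option Elab.async false
set_option maxRecDepth 100000

namespace Cfsg.Agent.H775.Th

open Cfsg.Agent.Th.Words248 Cfsg.Agent.Th.Gen248 Cfsg.Agent.Th.Hom248 Cfsg.Agent.H777.Th3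

/-- the word of the element `t` -/
def w_tt : Wd := .mul (.mul (.mul (.mul (.mul w_gg w_u4) w_u4) w_gg) w_u4) w_gg

/-- words in the stored words and `t` -/
inductive Rx
  | one
  | tt
  | at (a : At)
  | mul (x y : Rx)
  | pow (x : Rx) (n : ℕ)

/-- the word -/
def toW : Rx → Wd
  | .one => .one
  | .tt => w_tt
  | .at a => atW a
  | .mul x y => .mul (toW x) (toW y)
  | .pow x n => .pow (toW x) n

/-- its value, computed from the stored values -/
noncomputable def evX : Rx → ℕ
  | .one => idm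
  | .tt => expd m_tt
  | .at a => atN a
  | .mul x y => Cfsg.Agent.Th.Words248.mul (evX x) (evX y)
  | .pow x n => powN (evX x) n

theorem b_tt : Nat.beq (Cfsg.Agent.Th.Words248.mul (Cfsg.Agent.Th.Words248.mul (Cfsg.Agent.Th.Words248.mul
    (Cfsg.Agent.Th.Words248.mul (Cfsg.Agent.Th.Words248.mul (atN .gg) (atN .u4)) (atN .u4)) (atN .gg))
    (atN .u4)) (atN .gg)) (expd m_tt) = true := by decide +kernel

theorem val_tt : evN false w_tt = expd m_tt := by
  have hg : evN false w_gg = atN .gg := known .gg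
  have hu : evN false w_u4 = atN .u4 := known .u4
  show Cfsg.Agent.Th.Words248.mul (Cfsg.Agent.Th.Words248.mul (Cfsg.Agent.Th.Words248.mul
    (Cfsg.Agent.Th.Words248.mul (Cfsg.Agent.Th.Words248.mul (evN false w_gg) (evN false w_u4)) (evN false w_u4))
    (evN false w_gg)) (evN false w_u4)) (evN false w_gg) = _
  rw [hg, hu]
  exact Nat.eq_of_beq_eq_true b_tt

theorem evX_eq (r : Rx) : evN false (toW r) = evX r := by
  induction r with
  | one => rfl
  | tt => exact val_tt
  | «at» a => exact known a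
  | mul x y hx hy =>
    change Cfsg.Agent.Th.Words248.mul (evN false (toW x)) (evN false (toW y)) = _
    rw [hx, hy]; rfl
  | pow x n hx =>
    change powN (evN false (toW x)) n = _
    rw [hx]; rfl

theorem el_of {x y : Rx} (h : Nat.beq (evX x) (evX y) = true) : el (toW x) = el (toW y) := by
  refine of_chkL [(toW x, toW y)] ?_ _ (List.mem_singleton.2 rfl)
  show (Bool.rec false true (Nat.beq (evN false (toW x)) (evN false (toW y))) : Bool) = true
  rw [evX_eq, evX_eq, h]

theorem c_u1 : Nat.beq (evX (.mul (.at .u1) .tt)) (evX (.mul (.mul .tt (.at .u1)) (.pow (.at .u2) 2))) = true := by decide +kernel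

theorem c_u2 : Nat.beq (evX (.mul (.at .u2) .tt)) (evX (.mul .tt (.pow (.at .u1) 2))) = true := by decide +kernel

theorem c_u3 : Nat.beq (evX (.mul (.at .u3) .tt)) (evX (.mul .tt (.at .u3))) = true := by decide +kernel

theorem c_u4 : Nat.beq (evX (.mul (.at .u4) .tt)) (evX (.mul (.mul .tt (.pow (.at .u3) 2)) (.pow (.at .u5) 2))) = true := by decide +kernel

theorem c_u5 : Nat.beq (evX (.mul (.at .u5) .tt)) (evX (.mul (.mul .tt (.at .u3)) (.at .u4))) = true := by decide +kernel

theorem c_v1 : Nat.beq (evX (.mul (.at .v1) .tt)) (evX (.mul (.mul (.mul .tt (.pow (.at .u1) 2)) (.at .u2)) (.at .v2))) = true := by decide +kernel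

theorem c_v2 : Nat.beq (evX (.mul (.at .v2) .tt)) (evX (.mul (.mul (.mul (.mul .tt (.at .u1)) (.pow (.at .u3) 2)) (.at .v1)) (.pow (.at .v2) 2))) = true := by decide +kernel

theorem c_r1 : Nat.beq (evX (.mul (.at .r1) .tt)) (evX (.mul (.mul (.mul (.mul (.mul (.mul (.mul (.mul .tt (.pow (.at .r2) 2)) (.pow (.at .r1) 2)) (.at .v2)) (.pow (.at .v1) 2)) (.pow (.at .u1) 2)) (.pow (.at .u2) 2)) (.at .u4)) (.at .u5))) = true := by decide +kernel

theorem c_r2 : Nat.beq (evX (.mul (.at .r2) .tt)) (evX (.mul (.mul (.mul (.mul (.mul (.mul (.mul .tt (.pow (.at .r2) 2)) (.at .r1)) (.pow (.at .v2) 2)) (.pow (.at .v1) 2)) (.pow (.at .u1) 2)) (.pow (.at .u3) 2)) (.at .u5))) = true := by decide +kernel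

theorem c_pow : Nat.beq (evX (.pow .tt 8)) (evX .one) = true := by decide +kernel

/-- the element `t` -/
def et : Cfsg.Spor.Th := el w_tt

theorem t_u1 : thDat.u1 * et = et * thDat.u1 * thDat.u2 ^ 2 := by
  have h : el (.mul w_u1 w_tt) = el (.mul (.mul w_tt w_u1) (.pow w_u2 2)) := el_of c_u1
  simp only [el_mul, el_pow, el_one] at h
  exact h

theorem t_u2 : thDat.u2 * et = et * thDat.u1 ^ 2 := by
  have h : el (.mul w_u2 w_tt) = el (.mul w_tt (.pow w_u1 2)) := el_of c_u2
  simp only [el_mul, el_pow, el_one] at h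
  exact h

theorem t_u3 : thDat.u3 * et = et * thDat.u3 := by
  have h : el (.mul w_u3 w_tt) = el (.mul w_tt w_u3) := el_of c_u3
  simp only [el_mul, el_pow, el_one] at h
  exact h

theorem t_u4 : thDat.u4 * et = et * thDat.u3 ^ 2 * thDat.u5 ^ 2 := by
  have h : el (.mul w_u4 w_tt) = el (.mul (.mul w_tt (.pow w_u3 2)) (.pow w_u5 2)) := el_of c_u4
  simp only [el_mul, el_pow, el_one] at h
  exact h

theorem t_u5 : thDat.u5 * et = et * thDat.u3 * thDat.u4 := by
  have h : el (.mul w_u5 w_tt) = el (.mul (.mul w_tt w_u3) w_u4) := el_of c_u5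
  simp only [el_mul, el_pow, el_one] at h
  exact h

theorem t_v1 : thDat.v1 * et = et * thDat.u1 ^ 2 * thDat.u2 * thDat.v2 := by
  have h : el (.mul w_v1 w_tt) = el (.mul (.mul (.mul w_tt (.pow w_u1 2)) w_u2) w_v2) := el_of c_v1
  simp only [el_mul, el_pow, el_one] at h
  exact h

theorem t_v2 : thDat.v2 * et = et * thDat.u1 * thDat.u3 ^ 2 * thDat.v1 * thDat.v2 ^ 2 := by
  have h : el (.mul w_v2 w_tt) = el (.mul (.mul (.mul (.mul w_tt w_u1) (.pow w_u3 2)) w_v1) (.pow w_v2 2)) := el_of c_v2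
  simp only [el_mul, el_pow, el_one] at h
  exact h

theorem t_r1 : thDat.r1 * et = et * thDat.r2 ^ 2 * thDat.r1 ^ 2 * thDat.v2 * thDat.v1 ^ 2 * thDat.u1 ^ 2 * thDat.u2 ^ 2 * thDat.u4 * thDat.u5 := by
  have h : el (.mul w_r1 w_tt) = el (.mul (.mul (.mul (.mul (.mul (.mul (.mul (.mul w_tt (.pow w_r2 2)) (.pow w_r1 2)) w_v2) (.pow w_v1 2)) (.pow w_u1 2)) (.pow w_u2 2)) w_u4) w_u5) := el_of c_r1
  simp only [el_mul, el_pow, el_one] at h
  exact h

theorem t_r2 : thDat.r2 * et = et * thDat.r2 ^ 2 * thDat.r1 * thDat.v2 ^ 2 * thDat.v1 ^ 2 * thDat.u1 ^ 2 * thDat.u3 ^ 2 * thDat.u5 := by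
  have h : el (.mul w_r2 w_tt) = el (.mul (.mul (.mul (.mul (.mul (.mul (.mul w_tt (.pow w_r2 2)) w_r1) (.pow w_v2 2)) (.pow w_v1 2)) (.pow w_u1 2)) (.pow w_u3 2)) w_u5) := el_of c_r2
  simp only [el_mul, el_pow, el_one] at h
  exact h

theorem t_pow : et ^ 8 = 1 := by
  have h : el (.pow w_tt 8) = el .one := el_of c_pow
  rw [el_pow, el_one] at h
  exact h

end Cfsg.Agent.H775.Th
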