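import Cfsg.Agent.H775.Th.NotReal
import Cfsg.Agent.H775.Th.Cent
import Cfsg.Agent.H775.Th.TEl

/-!
# The exotic fusion system over the centralizer of the second centre (helper775)
-/

set_option autoImplicit false
set_option linter.unusedSimpArgs false

namespace Cfsg.Agent.H775.Th

open Cfsg Cfsg.FusionSystem Cfsg.Agent.H777.Th3 Dat Cfsg.Agent.H802
open Cfsg.Agent.H775 Cfsg.Agent.H759 Cfsg.Agent.H777.Real Cfsg.Agent.H777.Elim

universe u

/-- the relations in the Thompson group -/
theorem tRel : TRel thDat et where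
  pow8 := t_pow
  u1 := t_u1
  u2 := t_u2
  u3 := t_u3
  u4 := t_u4
  u5 := t_u5
  v1 := t_v1
  v2 := t_v2
  r1 := t_r1
  r2 := t_r2

/-- the standard Sylow subgroup -/
noncomputable def SylS [Fact (Nat.Prime 3)] : Sylow 3 Cfsg.Spor.Th :=
  haveI := finTh
  Sylow.ofCard thDat.Sg (by
    have h1 : (Nat.card Cfsg.Spor.Th).factorization 3 = 10 := by
      have h0 : Nat.card Cfsg.Spor.Th ≠ 0 := by rw [card_Th_eq]; norm_num
      apply le_antisymm
      · by_contra h
        push Not at h
        exact not_11 ((Nat.prime_three.pow_dvd_iff_le_factorization h0).2 h)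
      · rw [← Nat.prime_three.pow_dvd_iff_le_factorization h0, card_Th_eq]
        norm_num
    rw [card_Sg th_u1_ne, h1])

theorem SylS_coe [Fact (Nat.Prime 3)] : (SylS : Subgroup Cfsg.Spor.Th) = thDat.Sg := rfl

/-- **the exotic system** -/
theorem main [Fact (Nat.Prime 3)] {P : Type u} [Group P] [Finite P] (T : Sylow 3 Cfsg.Spor.Th)
    (e : P ≃* ↥(T : Subgroup Cfsg.Spor.Th))
    (h5302 : ∀ (H : Type u) [Group H] [Finite H] (A : Subgroup H), IsPGroup 3 A → A ≠ ⊥ →
      (∃ S : Sylow 3 H, IsStronglyClosed A (S : Subgroup H)) →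
      (∀ B : Subgroup H, B ≤ A → B ≠ ⊥ → (∃ S : Sylow 3 H, IsStronglyClosed B (S : Subgroup H)) → B = A) →
      3 ∣ A.relIndex (Subgroup.normalClosure (A : Set H)) → IsElementaryAbelian 3 A)
    (helim : ∀ (K : Type u) [Group K] [Finite K] [IsSimpleGroup K], ¬ IsMulCommutative K → Vn 7 K →
      Elim7.Big7 K) :
    ∃ F : Cfsg.FusionSystem (Subgroup.centralizer ((Subgroup.upperCentralSeries P 2 : Subgroup P) : Set P)),
      F.IsExotic 3 ∧ ¬ F.IsNormal (Subgroup.centralizer ((Subgroup.upperCentralSeries P 2 : Subgroup P) : Set P)) := by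
  have := finTh
  -- an embedding with image the standard Sylow subgroup
  obtain ⟨g, hg⟩ := MulAction.exists_smul_eq Cfsg.Spor.Th T SylS
  let f : P →* Cfsg.Spor.Th := (MulAut.conj g).toMonoidHom.comp ((T : Subgroup Cfsg.Spor.Th).subtype.comp e.toMonoidHom)
  have hf : Function.Injective f :=
    (MulAut.conj g).injective.comp ((Subgroup.subtype_injective _).comp e.injective)
  have hfr : f.range = thDat.Sg := by
    rw [← SylS_coe, ← hg, Sylow.coe_subgroup_smul]
    ext y
    constructor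
    · rintro ⟨x, rfl⟩
      exact ⟨e x, (e x).2, rfl⟩
    · rintro ⟨t, ht, rfl⟩
      refine ⟨e.symm ⟨t, ht⟩, ?_⟩
      show g * ((e (e.symm ⟨t, ht⟩) : (T : Subgroup Cfsg.Spor.Th)) : Cfsg.Spor.Th) * g⁻¹ = g * t * g⁻¹
      rw [MulEquiv.apply_symm_apply]
  set C := Subgroup.centralizer ((Subgroup.upperCentralSeries P 2 : Subgroup P) : Set P) with hC
  have hCf : C.map f = thDat.Tg := map_centralizer th_u1_ne hf hfr
  let k : C →* Cfsg.Spor.Th := f.comp C.subtype
  have hk : Function.Injective k := hf.comp C.subtype_injective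
  have hkr : k.range = thDat.Tg := by
    rw [← hCf]
    show (f.comp C.subtype).range = _
    rw [MonoidHom.range_comp, Subgroup.range_subtype]
  obtain ⟨Y, hY⟩ := exists_pull' (hf := hk) (T₁ := (⊤ : Subgroup C))
    (show thDat.Tg = (⊤ : Subgroup C).map k by rw [← hkr, MonoidHom.range_eq_map])
    (Ext.ext tRel.F0 Vs_le_Tg (Phi (D := thDat) th_u1_ne).range)
  obtain ⟨X, hX⟩ := exists_push' (hf := C.subtype_injective) (T₁ := (⊤ : Subgroup C)) (T₂ := C)
    (by rw [← MonoidHom.range_eq_map, Subgroup.range_subtype]) Y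
  refine ⟨X, ⟨?_, ?_⟩, ?_⟩
  · rw [hX.isSaturated_iff, ← hY.isSaturated_iff]
    exact tRel.F_sat th_u1_ne
  · rintro ⟨G, _, _, ι, hreal, S, hS⟩
    refine tRel.not_fus th_u1_ne hk hkr hY ι hreal.1 S hS ?_ h5302 helim
    intro Q φ
    rw [← hX.hom Q φ, hreal.2 (Q.map C.subtype) (by
      rintro _ ⟨x, -, rfl⟩
      exact x.2) (cb C.subtype_injective φ) (by
      intro x
      obtain ⟨y, rfl⟩ := (eqv C.subtype_injective Q).surjective x
      rw [cb_eqv]
      exact (φ y).2)]
    constructor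
    · rintro ⟨g, hg⟩
      refine ⟨g, fun x => ?_⟩
      have h2 := hg (eqv C.subtype_injective Q x)
      have h3 : (⟨cb C.subtype_injective φ (eqv C.subtype_injective Q x), by
        rw [cb_eqv]
        exact (φ x).2⟩ : C) = φ x := Subtype.ext (cb_eqv C.subtype_injective φ x)
      rw [h3] at h2
      exact h2
    · rintro ⟨g, hg⟩
      refine ⟨g, fun x => ?_⟩
      obtain ⟨y, rfl⟩ := (eqv C.subtype_injective Q).surjective x
      have h3 : (⟨cb C.subtype_injective φ (eqv C.subtype_injective Q y), by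
        rw [cb_eqv]
        exact (φ y).2⟩ : C) = φ y := Subtype.ext (cb_eqv C.subtype_injective φ y)
      rw [h3]
      exact hg y
  · intro hn
    have h2 : X.IsNormal ((⊤ : Subgroup C).map C.subtype) := by
      rw [← MonoidHom.range_eq_map, Subgroup.range_subtype]
      exact hn
    have h3 := hY.isNormal_iff.2 (hX.isNormal_iff.1 h2)
    have h4 := tRel.normal_eq_bot th_u1_ne h3
    rw [← MonoidHom.range_eq_map, hkr] at h4
    have h5 : thDat.u1 ∈ thDat.Tg := thDat.U_le_Tg thDat.u1_mem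
    rw [h4, Subgroup.mem_bot] at h5
    exact th_u1_ne h5

end Cfsg.Agent.H775.Th
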