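import Mathlib
import Cfsg.Agent.ChevalleyStructure.NineField
import Cfsg.Agent.H777.Th3.OrbV

/-!
# The action of `SL₂(9)` on `V5` (helper775)

`V5 = F₉² ⊕ F₃` through `th`.
-/

set_option autoImplicit false
set_option linter.unusedSimpArgs false

namespace Cfsg.Agent.H775.Th

open Cfsg.Agent.H777.Th3 Cfsg.Agent.ChevalleyStructure.NineField

/-- `SL₂(9)` -/
abbrev SL := Matrix.SpecialLinearGroup (Fin 2) F9

/-- vectors -/
abbrev W := F9 × F9 × ZMod 3

/-- elements of the field from coordinates -/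
def mk3 (a b : ZMod 3) : F9 := ⟨a, b⟩

/-- first coordinate -/
def re3 (x : F9) : ZMod 3 := x.re

/-- second coordinate -/
def im3 (x : F9) : ZMod 3 := x.im

theorem re3_add (x y : F9) : re3 (x + y) = re3 x + re3 y := rfl
theorem im3_add (x y : F9) : im3 (x + y) = im3 x + im3 y := rfl

/-- the coordinates of a vector -/
def th (e : V5) : W :=
  (mk3 (e.1 - e.2.1 - e.2.2.2.1) (-e.2.1), mk3 (e.2.2.2.1 + e.2.2.2.2) e.2.2.2.2, e.2.2.1 - e.2.2.2.1 - e.2.2.2.2)

/-- the vector with given coordinates -/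
def thi (w : W) : V5 :=
  (re3 w.1 - im3 w.1 + re3 w.2.1 - im3 w.2.1, - im3 w.1, w.2.2 + re3 w.2.1, re3 w.2.1 - im3 w.2.1, im3 w.2.1)

theorem thi_th : ∀ e : V5, thi (th e) = e := by decide +kernel

theorem th_thi : ∀ w : W, th (thi w) = w := by decide +kernel

theorem thi_add (v w : W) : thi (v + w) = thi v + thi w := by
  simp only [thi, Prod.fst_add, Prod.snd_add, re3_add, im3_add, Prod.mk_add_mk, Prod.mk.injEq]
  refine ⟨?_, ?_, ?_, ?_, ?_⟩
  · ring
  · ring
  · ring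
  · ring
  · trivial

theorem th_add (e f : V5) : th (e + f) = th e + th f := by
  rw [← th_thi (th e + th f), thi_add, thi_th, thi_th]

/-- the action of a matrix -/
def mact (M : SL) (w : W) : W :=
  (M.1 0 0 * w.1 + M.1 0 1 * w.2.1, M.1 1 0 * w.1 + M.1 1 1 * w.2.1, w.2.2)

theorem mact_add (M : SL) (v w : W) : mact M (v + w) = mact M v + mact M w := by
  refine Prod.ext ?_ (Prod.ext ?_ rfl)
  · show M.1 0 0 * (v.1 + w.1) + M.1 0 1 * (v.2.1 + w.2.1) =
      (M.1 0 0 * v.1 + M.1 0 1 * v.2.1) + (M.1 0 0 * w.1 + M.1 0 1 * w.2.1)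
    ring
  · show M.1 1 0 * (v.1 + w.1) + M.1 1 1 * (v.2.1 + w.2.1) =
      (M.1 1 0 * v.1 + M.1 1 1 * v.2.1) + (M.1 1 0 * w.1 + M.1 1 1 * w.2.1)
    ring

theorem mact_mul (M N : SL) (w : W) : mact (M * N) w = mact M (mact N w) := by
  have h : ∀ i j, (M * N).1 i j = M.1 i 0 * N.1 0 j + M.1 i 1 * N.1 1 j := by
    intro i j
    show (M.1 * N.1) i j = _
    rw [Matrix.mul_apply, Fin.sum_univ_two]
  refine Prod.ext ?_ (Prod.ext ?_ rfl)
  · show (M * N).1 0 0 * w.1 + (M * N).1 0 1 * w.2.1 =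
      M.1 0 0 * (N.1 0 0 * w.1 + N.1 0 1 * w.2.1) + M.1 0 1 * (N.1 1 0 * w.1 + N.1 1 1 * w.2.1)
    rw [h, h]
    ring
  · show (M * N).1 1 0 * w.1 + (M * N).1 1 1 * w.2.1 =
      M.1 1 0 * (N.1 0 0 * w.1 + N.1 0 1 * w.2.1) + M.1 1 1 * (N.1 1 0 * w.1 + N.1 1 1 * w.2.1)
    rw [h, h]
    ring

theorem mact_one (w : W) : mact 1 w = w := by
  refine Prod.ext ?_ (Prod.ext ?_ rfl)
  · show (1 : Matrix (Fin 2) (Fin 2) F9) 0 0 * w.1 + (1 : Matrix (Fin 2) (Fin 2) F9) 0 1 * w.2.1 = w.1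
    simp
  · show (1 : Matrix (Fin 2) (Fin 2) F9) 1 0 * w.1 + (1 : Matrix (Fin 2) (Fin 2) F9) 1 1 * w.2.1 = w.2.1
    simp

/-- the action on `V5` -/
def act (M : SL) (e : V5) : V5 := thi (mact M (th e))

theorem act_add (M : SL) (e f : V5) : act M (e + f) = act M e + act M f := by
  unfold act
  rw [th_add, mact_add, thi_add]

theorem act_mul (M N : SL) (e : V5) : act (M * N) e = act M (act N e) := by
  unfold act
  rw [th_thi, mact_mul]

theorem act_one (e : V5) : act 1 e = e := by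
  unfold act
  rw [mact_one, thi_th]

theorem act_inv (M : SL) (e : V5) : act M⁻¹ (act M e) = e := by
  rw [← act_mul, inv_mul_cancel, act_one]

theorem act_zero (M : SL) : act M 0 = 0 := by
  have h := act_add M 0 0
  rw [add_zero] at h
  exact left_eq_add.1 h

/-- the action is faithful -/
theorem act_inj {M N : SL} (h : ∀ e, act M e = act N e) : M = N := by
  have h1 : ∀ w, mact M w = mact N w := by
    intro w
    have := h (thi w)
    unfold act at this
    rw [th_thi] at this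
    rw [← th_thi (mact M w), this, th_thi]
  have h2 := h1 (1, 0, 0)
  have h3 := h1 (0, 1, 0)
  simp only [mact, mul_one, mul_zero, add_zero, zero_add, Prod.mk.injEq] at h2 h3
  apply Subtype.ext
  refine Matrix.ext fun i j => ?_
  fin_cases i <;> fin_cases j
  · exact h2.1
  · exact h3.1
  · exact h2.2.1
  · exact h3.2.1

/-- unipotent elements -/
def up (β : F9) : SL := ⟨!![1, β; 0, 1], by simp [Matrix.det_fin_two]⟩

/-- the generator of the torus -/
def dl : SL := ⟨!![⟨2, 1⟩, 0; 0, ⟨1, 1⟩], by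
  rw [Matrix.det_fin_two]
  show (⟨2, 1⟩ : F9) * ⟨1, 1⟩ - 0 * 0 = 1
  decide +kernel⟩

theorem up_mul (β γ : F9) : up β * up γ = up (β + γ) := by
  apply Subtype.ext
  show !![1, β; 0, 1] * !![1, γ; 0, 1] = !![1, β + γ; 0, 1]
  refine Matrix.ext fun i j => ?_
  fin_cases i <;> fin_cases j <;> simp [Matrix.mul_apply, Fin.sum_univ_two, add_comm]

theorem up_zero : up 0 = 1 := by
  apply Subtype.ext
  show !![1, 0; 0, 1] = (1 : Matrix (Fin 2) (Fin 2) F9)
  refine Matrix.ext fun i j => ?_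
  fin_cases i <;> fin_cases j <;> simp

theorem up_pow (β : F9) (n : ℕ) : up β ^ n = up (n • β) := by
  induction n with
  | zero => rw [pow_zero, zero_smul, up_zero]
  | succ n ih => rw [pow_succ, ih, up_mul, succ_nsmul]

theorem dl_pow (n : ℕ) : (dl ^ n).1 = !![(⟨2, 1⟩ : F9) ^ n, 0; 0, (⟨1, 1⟩ : F9) ^ n] := by
  induction n with
  | zero =>
    refine Matrix.ext fun i j => ?_
    fin_cases i <;> fin_cases j <;> simp
  | succ n ih =>
    rw [pow_succ]
    show (dl ^ n).1 * dl.1 = _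
    rw [ih]
    refine Matrix.ext fun i j => ?_
    fin_cases i <;> fin_cases j <;> simp [Matrix.mul_apply, Fin.sum_univ_two, dl, pow_succ]

theorem exists_pow : ∀ a : F9, a ≠ 0 → ∃ n : Fin 8, (⟨2, 1⟩ : F9) ^ n.val = a ∧ (⟨1, 1⟩ : F9) ^ n.val * a = 1 := by
  decide +kernel

/-- upper triangular matrices -/
theorem exists_upper {M : SL} (h : M.1 1 0 = 0) : ∃ (β : F9) (n : ℕ), M = up β * dl ^ n := by
  have hd : M.1 0 0 * M.1 1 1 = 1 := by
    have := M.2
    rw [Matrix.det_fin_two, h, mul_zero, sub_zero] at this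
    exact this
  have h0 : M.1 0 0 ≠ 0 := by
    intro h0
    rw [h0, zero_mul] at hd
    exact zero_ne_one hd
  obtain ⟨n, hn1, hn2⟩ := exists_pow _ h0
  refine ⟨M.1 0 1 * M.1 0 0, n.val, ?_⟩
  have h2 : (⟨1, 1⟩ : F9) ^ n.val = M.1 1 1 := by
    apply mul_left_cancel₀ h0
    rw [hd, mul_comm]
    exact hn2
  apply Subtype.ext
  show M.1 = !![1, M.1 0 1 * M.1 0 0; 0, 1] * (dl ^ n.val).1
  refine Matrix.ext fun i j => ?_
  rw [Matrix.mul_apply, Fin.sum_univ_two, dl_pow, hn1, h2]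
  fin_cases i <;> fin_cases j
  · simp
  · simp only [Fin.zero_eta, Fin.isValue, Fin.mk_one, Matrix.of_apply, Matrix.cons_val', Matrix.cons_val_zero,
      Matrix.cons_val_one, Matrix.cons_val_fin_one, zero_ne_one, if_false, mul_zero, zero_add, if_true, one_ne_zero]
    rw [mul_assoc, hd, mul_one]
  · simp [h]
  · simp

end Cfsg.Agent.H775.Th
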