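import Cfsg.Agent.H775.Th.TGrp
import Cfsg.Agent.H775.Th.Borel
import Cfsg.Agent.H775.ExtendCore

/-!
# The saturated fusion system over `Tg` (helper775)
-/

set_option autoImplicit false
set_option linter.unusedSimpArgs false

namespace Cfsg.Agent.H775.Th

open Cfsg Cfsg.FusionSystem Cfsg.Agent.H777.Th3 Dat Cfsg.Agent.ChevalleyStructure.NineField Cfsg.Agent.H802

variable {G : Type*} [Group G] {D : Dat G} {t : G}

/-- `SL₂(9)` acting on the vectors -/
def actE (M : SL) : Multiplicative V5 ≃* Multiplicative V5 where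
  toFun e := Multiplicative.ofAdd (act M e.toAdd)
  invFun e := Multiplicative.ofAdd (act M⁻¹ e.toAdd)
  left_inv e := congrArg Multiplicative.ofAdd (act_inv M _)
  right_inv e := by
    show Multiplicative.ofAdd (act M (act M⁻¹ e.toAdd)) = e
    rw [← act_mul, mul_inv_cancel, act_one]
    rfl
  map_mul' x y := congrArg Multiplicative.ofAdd (act_add M _ _)

/-- the elements of `V` -/
noncomputable def vvE (h1 : D.u1 ≠ 1) : Multiplicative V5 ≃* D.Vs :=
  MonoidHom.ofInjective (f := D.vvHom) (fun _ _ hab => congrArg Multiplicative.ofAdd (vv_injective h1 hab))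

theorem vvE_apply (h1 : D.u1 ≠ 1) (e : Multiplicative V5) : ((vvE h1 e : D.Vs) : G) = D.vv e.toAdd := rfl

/-- `SL₂(9)` acting on `V` -/
noncomputable def Phi (h1 : D.u1 ≠ 1) : SL →* MulAut D.Vs where
  toFun M := ((vvE h1).symm.trans (actE M)).trans (vvE h1)
  map_one' := by
    apply MulEquiv.ext
    intro x
    obtain ⟨e, rfl⟩ := (vvE h1).surjective x
    show vvE h1 (actE 1 ((vvE h1).symm (vvE h1 e))) = vvE h1 e
    rw [MulEquiv.symm_apply_apply]
    congr 1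
    exact congrArg Multiplicative.ofAdd (act_one _)
  map_mul' M N := by
    apply MulEquiv.ext
    intro x
    obtain ⟨e, rfl⟩ := (vvE h1).surjective x
    show vvE h1 (actE (M * N) ((vvE h1).symm (vvE h1 e))) =
      vvE h1 (actE M ((vvE h1).symm (vvE h1 (actE N ((vvE h1).symm (vvE h1 e))))))
    rw [MulEquiv.symm_apply_apply, MulEquiv.symm_apply_apply]
    congr 1
    exact congrArg Multiplicative.ofAdd (act_mul _ _ _)

theorem Phi_vvE (h1 : D.u1 ≠ 1) (M : SL) (e : Multiplicative V5) : Phi h1 M (vvE h1 e) = vvE h1 (actE M e) := by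
  show vvE h1 (actE M ((vvE h1).symm (vvE h1 e))) = _
  rw [MulEquiv.symm_apply_apply]

theorem Phi_apply (h1 : D.u1 ≠ 1) (M : SL) (e : V5) :
    ((Phi h1 M ⟨D.vv e, D.vv_mem e⟩ : D.Vs) : G) = D.vv (act M e) := by
  have h : (⟨D.vv e, D.vv_mem e⟩ : D.Vs) = vvE h1 (Multiplicative.ofAdd e) := rfl
  rw [h, Phi_vvE]
  rfl

theorem Phi_injective (h1 : D.u1 ≠ 1) : Function.Injective (Phi (D := D) h1) := by
  intro M N hMN
  apply act_inj
  intro e
  apply vv_injective h1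
  rw [← Phi_apply h1, ← Phi_apply h1, hMN]

/-- equality with a conjugation -/
theorem Phi_eq_iff (h1 : D.u1 ≠ 1) {α : MulAut D.Vs} {M : SL} {b : G} (hα : ∀ x : D.Vs, ((α x : D.Vs) : G) = b * x * b⁻¹) :
    α = Phi h1 M ↔ ∀ e, b * D.vv e * b⁻¹ = D.vv (act M e) := by
  constructor
  · rintro rfl e
    rw [← Phi_apply h1, hα]
  · intro h
    apply MulEquiv.ext
    intro x
    obtain ⟨x, hx⟩ := x
    obtain ⟨e, rfl⟩ := (D.mem_Vs).1 hx
    apply Subtype.ext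
    rw [hα, Phi_apply h1]
    exact h e

theorem vab_comm_vv (m : F2) (e : V5) : D.vab m * D.vv e = D.vv e * D.vab m := by
  have : D.vab m = D.vv (0, 0, 0, m.1, m.2) := by
    unfold vv
    have h0 : ((0, 0, 0, 0, 0) : V5) = 0 := rfl
    show D.vab m = D.uu (0, 0, 0, 0, 0) * D.vab m
    rw [h0, uu_zero, one_mul]
  rw [this]
  exact Vs_comm (D.vv_mem _) (D.vv_mem _)

/-- the elements of `N` act as unipotent elements -/
theorem N_act {n : G} (hn : n ∈ D.N) : ∃ β, ∀ e, n⁻¹ * D.vv e * n = D.vv (act (up β) e) := by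
  obtain ⟨f, a, b, rfl⟩ := (D.mem_N).1 hn
  refine ⟨mk3 f.2.2.2.1 (-f.2.2.2.2), fun e => ?_⟩
  rw [← mvU_eq]
  have h1 := actV_uu (D := D) f e
  have h2 := vab_comm_vv (D := D) (a, b) (mvU f e)
  have h3 : D.vab (a, b) = D.v1 ^ a.val * D.v2 ^ b.val := rfl
  rw [← h3]
  calc (D.uu f * D.vab (a, b))⁻¹ * D.vv e * (D.uu f * D.vab (a, b))
      = (D.vab (a, b))⁻¹ * ((D.uu f)⁻¹ * D.vv e * D.uu f) * D.vab (a, b) := by group
    _ = (D.vab (a, b))⁻¹ * (D.vv (mvU f e) * D.vab (a, b)) := by rw [h1]; group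
    _ = _ := by rw [← h2]; group

theorem N_act' {n : G} (hn : n ∈ D.N) : ∃ β, ∀ e, n * D.vv e * n⁻¹ = D.vv (act (up β) e) := by
  obtain ⟨β, h⟩ := N_act (D.N.inv_mem hn)
  refine ⟨β, fun e => ?_⟩
  rw [← h, inv_inv]

theorem TRel.t_act (h : TRel D t) (e : V5) : t⁻¹ * D.vv e * t = D.vv (act dl e) := by
  rw [← Tt_eq_act]
  exact h.actV e

theorem TRel.tpow_act (h : TRel D t) (n : ℕ) (e : V5) : (t ^ n)⁻¹ * D.vv e * t ^ n = D.vv (act (dl ^ n) e) := by
  induction n generalizing e with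
  | zero => rw [pow_zero, pow_zero, act_one]; group
  | succ n ih =>
    have e1 : (t ^ (n + 1))⁻¹ * D.vv e * t ^ (n + 1) = (t ^ n)⁻¹ * (t⁻¹ * D.vv e * t) * t ^ n := by
      rw [pow_succ']; group
    rw [e1, h.t_act, ih, pow_succ, act_mul]

theorem TRel.tpow_act' (h : TRel D t) (n : ℕ) (e : V5) : t ^ n * D.vv e * (t ^ n)⁻¹ = D.vv (act (dl ^ (7 * n)) e) := by
  rw [← h.tpow_act, ← h.inv_pow, inv_inv]

/-- **the elements of `B` normalizing `V` act as upper triangular matrices** -/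
theorem TRel.norm_act (h : TRel D t) (h1 : D.u1 ≠ 1) {b : G} (hb : b ∈ h.B) (hn : ∀ x ∈ D.Vs, b * x * b⁻¹ ∈ D.Vs) :
    ∃ M : SL, M.1 1 0 = 0 ∧ ∀ e, b * D.vv e * b⁻¹ = D.vv (act M e) := by
  obtain ⟨s, hs, n, rfl⟩ := hb
  have hsn : ∀ x ∈ D.Vs, s * x * s⁻¹ ∈ D.Vs := by
    intro x hx
    obtain ⟨e, rfl⟩ := (D.mem_Vs).1 hx
    have h2 := hn _ (D.vv_mem (act (dl ^ n) e))
    rw [← h.tpow_act] at h2
    have h3 : s * t ^ n * ((t ^ n)⁻¹ * D.vv e * t ^ n) * (s * t ^ n)⁻¹ = s * D.vv e * s⁻¹ := by group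
    rwa [h3] at h2
  have hsN : s ∈ D.N := by
    have h2 : s⁻¹ ∈ D.N := mem_N_of_norm h1 (D.Tg_le_Sg (D.Tg.inv_mem hs)) (by
      intro y hy
      rw [inv_inv]
      exact hsn y hy)
    have := D.N.inv_mem h2
    rwa [inv_inv] at this
  obtain ⟨β, hβ⟩ := N_act' hsN
  refine ⟨up β * dl ^ (7 * n), ?_, fun e => ?_⟩
  · show ((!![1, β; 0, 1] : Matrix (Fin 2) (Fin 2) F9) * (dl ^ (7 * n)).1) 1 0 = 0
    rw [dl_pow]
    simp [Matrix.mul_apply, Fin.sum_univ_two]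
  · have h2 : s * t ^ n * D.vv e * (s * t ^ n)⁻¹ = s * (t ^ n * D.vv e * (t ^ n)⁻¹) * s⁻¹ := by group
    rw [h2, h.tpow_act', hβ, act_mul]

/-- every upper triangular matrix is induced by an element of `B` -/
theorem TRel.exists_norm (h : TRel D t) {M : SL} (hM : M.1 1 0 = 0) :
    ∃ b ∈ h.B, ∀ e, b * D.vv e * b⁻¹ = D.vv (act M e) := by
  obtain ⟨β, n, rfl⟩ := exists_upper hM
  refine ⟨(D.uu (0, 0, 0, re3 β, -im3 β))⁻¹ * t ^ (7 * n), ?_, fun e => ?_⟩
  · exact ⟨_, D.Tg.inv_mem (D.U_le_Tg (D.uu_mem _)), _, rfl⟩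
  · have h2 : (D.uu (0, 0, 0, re3 β, -im3 β))⁻¹ * t ^ (7 * n) * D.vv e *
        ((D.uu (0, 0, 0, re3 β, -im3 β))⁻¹ * t ^ (7 * n))⁻¹ =
        (D.uu (0, 0, 0, re3 β, -im3 β))⁻¹ * (t ^ (7 * n) * D.vv e * (t ^ (7 * n))⁻¹) *
          D.uu (0, 0, 0, re3 β, -im3 β) := by group
    have h3 : dl ^ (7 * (7 * n)) = dl ^ n := by
      have h7 : dl ^ 8 = 1 := by
        apply Subtype.ext
        rw [dl_pow]
        have e1 : (⟨2, 1⟩ : F9) ^ 8 = 1 := by decide +kernel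
        have e2 : (⟨1, 1⟩ : F9) ^ 8 = 1 := by decide +kernel
        rw [e1, e2]
        refine Matrix.ext fun i j => ?_
        fin_cases i <;> fin_cases j <;> simp
      have : 7 * (7 * n) = 8 * (6 * n) + n := by ring
      rw [this, pow_add, pow_mul, h7, one_pow, one_mul]
    rw [h2, h.tpow_act', h3, actV_uu (D := D), mvU_eq]
    have h4 : mk3 (re3 β) (-(-im3 β)) = β := by
      rw [neg_neg]
      rfl
    show D.vv (act (up (mk3 (re3 β) (-(-im3 β)))) (act (dl ^ n) e)) = _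
    rw [h4, act_mul]

end Cfsg.Agent.H775.Th
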